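import Mathlib
import Cfsg.Prelude.Def_Characters
import Cfsg.Prelude.Def_Blocks
import Cfsg.Agent.Lib.Helper5.Inertia

/-!
# Real characters of odd degree: definitions for the ladder `RO` (S4581)
-/

set_option autoImplicit false

namespace Cfsg.Agent.Lib.Helper84.RO

open Cfsg Cfsg.Agent.Lib.Helper5
open scoped ComplexConjugate

/-- real valued -/
def IsReal {X : Type*} (χ : X → ℂ) : Prop := ∀ g, (χ g).im = 0

/-- real valued of odd degree -/
def IsRO {X : Type*} [Group X] (χ : X → ℂ) : Prop := IsReal χ ∧ Odd (charDegree χ)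

/-- the number of real irreducible characters of odd degree -/
noncomputable def ro (X : Type*) [Group X] : ℕ :=
  Nat.card {χ : IrrCharacter X // IsRO (χ : X → ℂ)}

/-- real linear character -/
def IsRL {X : Type*} [Group X] (μ : X → ℂ) : Prop := IsCharacter X μ ∧ μ 1 = 1 ∧ IsReal μ

/-- all linear characters are real -/
def LinReal (P : Type*) [Group P] : Prop :=
  ∀ ν : P → ℂ, IsCharacter P ν → ν 1 = 1 → IsReal ν

/-- all irreducible characters of odd degree are real -/
def AllReal (G : Type*) [Group G] : Prop :=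
  ∀ χ : IrrCharacter G, Odd (charDegree (χ : G → ℂ)) → IsReal (χ : G → ℂ)

variable {G : Type*} [Group G]

/-- the function `χ` on the subgroup `Y ≥ L` lies over the function `θ` on `L` -/
def Ov {L Y : Subgroup G} (hLY : L ≤ Y) (χ : Y → ℂ) (θ : L → ℂ) : Prop :=
  ∑ᶠ l : L, χ ⟨l, hLY l.2⟩ * conj (θ l) ≠ 0

/-- the number of real irreducible characters of odd degree of `Y` over `θ` -/
noncomputable def cnt {L Y : Subgroup G} (hLY : L ≤ Y) (θ : L → ℂ) : ℕ :=
  Nat.card {χ : IrrCharacter Y // IsRO (χ : Y → ℂ) ∧ Ov hLY (χ : Y → ℂ) θ}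

end Cfsg.Agent.Lib.Helper84.RO
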