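import Cfsg.Agent.Lib.Helper84.RO.Defs
import Cfsg.Agent.Lib.Helper82.ROCL
import Cfsg.Agent.Lib.Helper82.ROTW
import Cfsg.Agent.Lib.Helper82.ROINF
import Cfsg.Agent.Lib.Helper82.ROODD
import Cfsg.Agent.Lib.Helper82.RORES
import Cfsg.Agent.Lib.Helper82.ROTR
import Cfsg.Agent.Lib.Helper82.ROEX
import Cfsg.Agent.Lib.Helper82.ROORB
import Cfsg.Agent.Lib.Helper42.RONQ
import Cfsg.Agent.Lib.Helper42.ROCOUNT
import Cfsg.Agent.Lib.Helper42.ROFRAT
import Cfsg.Agent.Lib.Helper42.ROFIX
import Cfsg.Agent.Lib.Helper12.MinNormal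
import Cfsg.Agent.Lib.Helper82.LinCount
import Cfsg.Agent.Lib.Helper20.CharCount

set_option autoImplicit false

namespace Cfsg.Agent.Lib.Helper84.RO

open Cfsg Cfsg.Agent.Lib.Helper5 Cfsg.Agent.Lib.Helper82 Cfsg.Agent.Lib.Helper82.RO
  Cfsg.Agent.Lib.Helper42.RO
open scoped ComplexConjugate

universe u

theorem ro_eq_of_ker {A B : Type*} [Group A] [Group B] [Finite A] (π : A →* B)
    (hπ : Function.Surjective π)
    (h : ∀ χ : IrrCharacter A, IsRO (χ : A → ℂ) → ∀ x ∈ π.ker, (χ : A → ℂ) x = (χ : A → ℂ) 1) :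
    ro A = ro B := by
  rw [ro_eq_card_ker π hπ]
  exact Nat.card_congr (Equiv.subtypeEquivRight (fun χ => ⟨fun h1 => ⟨h1, h χ h1⟩, fun h1 => h1.1⟩))

theorem ro_congr {A B : Type*} [Group A] [Group B] [Finite A] (e : A ≃* B) : ro A = ro B := by
  apply ro_eq_of_ker e.toMonoidHom e.surjective
  intro χ _ x hx
  have : x = 1 := by
    have h1 : e x = 1 := hx
    exact (map_eq_one_iff e e.injective).mp h1
  rw [this]

theorem ro_eq_of_surj_odd_ker {A B : Type*} [Group A] [Group B] [Finite A] (π : A →* B)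
    (hπ : Function.Surjective π) (hodd : Odd (Nat.card π.ker))
    (hab : ∀ a ∈ π.ker, ∀ b ∈ π.ker, a * b = b * a) : ro A = ro B :=
  ro_eq_of_ker π hπ (fun χ hχ => ker_of_odd_normal π.ker hodd hab χ χ.2 hχ)

theorem isRL_one {X : Type*} [Group X] : IsRL (fun _ : X => (1 : ℂ)) := by
  exact ⟨Cfsg.Agent.Lib.Helper20.isCharacter_one, rfl, fun _ => by simp⟩

theorem cnt_one_eq_ro {G : Type*} [Group G] [Finite G] (L Y : Subgroup G) (hL : L.Normal)
    (hLY : L ≤ Y) {B : Type*} [Group B] (π : Y →* B) (hπ : Function.Surjective π)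
    (hker : ∀ y : Y, π y = 1 ↔ (y : G) ∈ L) : cnt hLY (fun _ => 1) = ro B := by
  rw [ro_eq_card_ker π hπ]
  apply Nat.card_congr
  apply Equiv.subtypeEquivRight
  intro χ
  have h1 := res_of_ov_invariant L Y hL hLY (fun _ => 1) isRL_one.1 rfl
    (fun y _ => by funext l; rfl) χ χ.2
  rw [h1]
  constructor
  · rintro ⟨h2, h3⟩
    refine ⟨h2, fun x hx => ?_⟩
    have := h3 ⟨x, (hker x).mp hx⟩
    simpa using this
  · rintro ⟨h2, h3⟩
    refine ⟨h2, fun l => ?_⟩
    rw [mul_one]
    exact h3 _ ((hker _).mpr l.2)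

theorem cnt_congr {G : Type*} [Group G] {L Y Y' : Subgroup G} (h : Y = Y') (hLY : L ≤ Y)
    (hLY' : L ≤ Y') (θ : L → ℂ) : cnt hLY θ = cnt hLY' θ := by
  subst h
  rfl

theorem IsRL.comp {X Y : Type*} [Group X] [Group Y] {μ : Y → ℂ} (h : IsRL μ) (f : X →* Y) :
    IsRL (fun x => μ (f x)) := by
  refine ⟨Cfsg.Agent.Lib.Helper20.isCharacter_comp_hom h.1 f, ?_, fun g => h.2.2 _⟩
  show μ (f 1) = 1
  rw [map_one, h.2.1]

theorem map_mem_normalizer {X X' : Type*} [Group X] [Group X'] (π : X →* X') (S : Subgroup X)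
    {n : X} (hn : n ∈ Subgroup.normalizer (S : Set X)) :
    π n ∈ Subgroup.normalizer ((S.map π : Subgroup X') : Set X') := by
  rw [Subgroup.mem_normalizer_iff] at hn ⊢
  intro z
  constructor
  · rintro ⟨s, hs, rfl⟩
    exact ⟨n * s * n⁻¹, (hn s).mp hs, by simp⟩
  · rintro ⟨s, hs, hz⟩
    refine ⟨n⁻¹ * s * n, ?_, ?_⟩
    · rw [SetLike.mem_coe, hn]
      have : n * (n⁻¹ * s * n) * n⁻¹ = s := by group
      rw [this]; exact hs
    · rw [map_mul, map_mul, hz, map_inv]
      group

/-- the induction hypothesis of part A -/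
def IHA (n : ℕ) : Prop :=
  ∀ m < n, ∀ (H : Type u) [Group H] [Finite H] [Group.IsSolvable H], Nat.card H = m →
    ∀ S : Sylow 2 H, ro H = ro (Subgroup.normalizer ((S : Subgroup H) : Set H))

theorem odd_index_sylow {G : Type*} [Group G] [Finite G] (P : Sylow 2 G) :
    Odd (P : Subgroup G).index := by
  have : Fact (Nat.Prime 2) := ⟨Nat.prime_two⟩
  rw [← Nat.not_even_iff_odd, even_iff_two_dvd]
  exact P.not_dvd_index

theorem cnt_T_eq {n : ℕ} (ih : IHA.{u} n) {G : Type u} [Group G] [Finite G] [Group.IsSolvable G]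
    (hcard : Nat.card G = n) (P : Sylow 2 G) (L : Subgroup G) (hL : L.Normal) (hLne : L ≠ ⊥)
    (hLP : L ≤ P) (θ : L → ℂ) (hθ : IsRL θ) (T : Subgroup G) (hPT : (P : Subgroup G) ≤ T)
    (hinv : ∀ t ∈ T, cjF hL θ t = θ) (hLT : L ≤ T)
    (hLNT : L ≤ Subgroup.normalizer ((P : Subgroup G) : Set G) ⊓ T) :
    cnt hLT θ = cnt hLNT θ := by
  classical
  have : Fact (Nat.Prime 2) := ⟨Nat.prime_two⟩
  set N := Subgroup.normalizer ((P : Subgroup G) : Set G) with hN
  have hPN : (P : Subgroup G) ≤ N := Subgroup.le_normalizer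
  by_cases hE : ∃ μ : T → ℂ, IsRL μ ∧ ∀ l : L, μ ⟨l, hLT l.2⟩ = θ l
  · obtain ⟨μ, hμ, hμθ⟩ := hE
    rw [cnt_twist L T hLT θ μ hμ hμθ, cnt_twist L (N ⊓ T) hLNT θ
      (fun x => μ (Subgroup.inclusion inf_le_right x)) (hμ.comp _) (fun l => hμθ l)]
    have hLTn : (L.subgroupOf T).Normal := hL.subgroupOf T
    let πT : T →* T ⧸ L.subgroupOf T := QuotientGroup.mk' _
    have hπT : Function.Surjective πT := QuotientGroup.mk'_surjective _
    let PT : Sylow 2 T := P.subtype hPT
    let Pb : Sylow 2 (T ⧸ L.subgroupOf T) := PT.mapSurjective hπT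
    have hkerT : ∀ y : T, πT y = 1 ↔ (y : G) ∈ L := by
      intro y
      rw [QuotientGroup.mk'_apply, QuotientGroup.eq_one_iff, Subgroup.mem_subgroupOf]
    rw [cnt_one_eq_ro L T hL hLT πT hπT hkerT]
    have hlt : Nat.card (T ⧸ L.subgroupOf T) < n := by
      have h1 : Nat.card (T ⧸ L.subgroupOf T) * Nat.card (L.subgroupOf T) = Nat.card T := by
        rw [mul_comm]; exact (L.subgroupOf T).card_mul_index
      have h2 : Nat.card (L.subgroupOf T) = Nat.card L :=
        Nat.card_congr (Subgroup.subgroupOfEquivOfLe hLT).toEquiv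
      have h3 : 1 < Nat.card L := by
        rw [Subgroup.one_lt_card_iff_ne_bot]; exact hLne
      have h4 : Nat.card T ≤ n := by rw [← hcard]; exact Subgroup.card_le_card_group T
      have h5 : 0 < Nat.card (T ⧸ L.subgroupOf T) := Nat.card_pos
      rw [h2] at h1
      nlinarith
    rw [ih _ hlt (T ⧸ L.subgroupOf T) rfl Pb]
    have hmemN : ∀ x : (N ⊓ T : Subgroup G), πT ⟨x, x.2.2⟩ ∈
        Subgroup.normalizer ((Pb : Subgroup (T ⧸ L.subgroupOf T)) : Set (T ⧸ L.subgroupOf T)) := by
      intro x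
      apply map_mem_normalizer πT (PT : Subgroup T)
      rw [Subgroup.mem_normalizer_iff]
      intro t
      have h1 := Subgroup.mem_normalizer_iff.mp x.2.1 (t : G)
      exact h1
    let πN : (N ⊓ T : Subgroup G) →* Subgroup.normalizer
        ((Pb : Subgroup (T ⧸ L.subgroupOf T)) : Set (T ⧸ L.subgroupOf T)) :=
      (πT.comp (Subgroup.inclusion inf_le_right)).codRestrict _ hmemN
    have hπN : Function.Surjective πN := by
      rintro ⟨y, hy⟩
      obtain ⟨m, hm, hmy⟩ := normalizer_map_surj πT hπT PT y hy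
      have hmN : (m : G) ∈ N := by
        rw [hN, Subgroup.mem_normalizer_iff]
        intro g
        rw [Subgroup.mem_normalizer_iff] at hm
        constructor
        · intro hg
          exact (hm ⟨g, hPT hg⟩).mp hg
        · intro hg
          have hgT : g ∈ T := by
            have h1 := T.mul_mem (T.mul_mem (T.inv_mem m.2) (hPT hg)) m.2
            have e : (m : G)⁻¹ * ((m : G) * g * (m : G)⁻¹) * (m : G) = g := by group
            rwa [e] at h1
          exact (hm ⟨g, hgT⟩).mpr hg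
      refine ⟨⟨m, hmN, m.2⟩, ?_⟩
      apply Subtype.ext
      exact hmy
    have hkerN : ∀ y : (N ⊓ T : Subgroup G), πN y = 1 ↔ (y : G) ∈ L := by
      intro y
      rw [← hkerT ⟨y, y.2.2⟩]
      constructor
      · intro h
        exact congrArg Subtype.val h
      · intro h
        apply Subtype.ext
        exact h
    rw [cnt_one_eq_ro L (N ⊓ T) hL hLNT πN hπN hkerN]
  · have h1 : cnt hLT θ = 0 := by
      unfold cnt
      rw [Nat.card_eq_zero]
      left
      constructor
      rintro ⟨ξ, hξro, hξov⟩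
      apply hE
      have h2 := (res_of_ov_invariant L T hL hLT θ hθ.1 hθ.2.1 hinv ξ ξ.2).mp hξov
      exact exists_rl_of_ro (Subgroup.inclusion hLT) θ hθ ξ (isIrr_isChar ξ.2) hξro h2
    have h2 : cnt hLNT θ = 0 := by
      unfold cnt
      rw [Nat.card_eq_zero]
      left
      constructor
      rintro ⟨ξ, hξro, hξov⟩
      apply hE
      have h2 := (res_of_ov_invariant L (N ⊓ T) hL hLNT θ hθ.1 hθ.2.1
        (fun y hy => hinv y hy.2) ξ ξ.2).mp hξov
      obtain ⟨μ', hμ', hμ'θ⟩ := exists_rl_of_ro (Subgroup.inclusion hLNT) θ hθ ξ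
        (isIrr_isChar ξ.2) hξro h2
      let k : ((P : Subgroup G).subgroupOf T) →* (N ⊓ T : Subgroup G) :=
        { toFun := fun s => ⟨((s : T) : G), hPN s.2, (s : T).2⟩
          map_one' := rfl
          map_mul' := fun _ _ => rfl }
      let j : L →* ((P : Subgroup G).subgroupOf T) :=
        { toFun := fun l => ⟨⟨l, hLT l.2⟩, hLP l.2⟩
          map_one' := rfl
          map_mul' := fun _ _ => rfl }
      have hoddS : Odd ((P : Subgroup G).subgroupOf T).index := by
        have h3 : (P : Subgroup G).relIndex T * T.index = (P : Subgroup G).index :=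
          Subgroup.relIndex_mul_index hPT
        have h4 := odd_index_sylow P
        rw [← h3] at h4
        exact (Nat.odd_mul.mp h4).1
      obtain ⟨μ, hμ, hμθ⟩ := exists_rl_transfer ((P : Subgroup G).subgroupOf T) hoddS j θ
        (fun t l => ⟨⟨t * l * t⁻¹, hL.conj_mem l l.2 t⟩, rfl, congrFun (hinv t t.2) l⟩)
        (fun s => μ' (k s)) (hμ'.comp k) (fun l => hμ'θ l)
      exact ⟨μ, hμ, fun l => hμθ l⟩
    rw [h1, h2]

theorem le_sylow_of_normal {G : Type*} [Group G] [Finite G] {p : ℕ} [Fact p.Prime]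
    (L : Subgroup G) (hL : L.Normal) (hLp : IsPGroup p L) (P : Sylow p G) : L ≤ P := by
  obtain ⟨Q, hQ⟩ := hLp.exists_le_sylow
  obtain ⟨g, rfl⟩ := MulAction.exists_smul_eq G Q P
  intro l hl
  open Pointwise in
  show l ∈ (MulAut.conj g • (Q : Subgroup G))
  rw [Subgroup.mem_pointwise_smul_iff_inv_smul_mem]
  apply hQ
  show (MulAut.conj g)⁻¹ l ∈ L
  rw [← map_inv, MulAut.conj_apply, inv_inv]
  have := hL.conj_mem l hl g⁻¹
  rwa [inv_inv] at this

theorem isRL_of_exp_two {L : Type*} [Group L] [Finite L] (h2 : ∀ x : L, x ^ 2 = 1)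
    (hab : ∀ a b : L, a * b = b * a) {θ : L → ℂ} (hθ : IsIrrCharacter L θ) : IsRL θ := by
  have hc := isIrr_isChar hθ
  have h1 : θ 1 = 1 := by
    rw [isIrr_linear_iff hθ]
    intro x hx
    have : commutator L = ⊥ := by
      rw [commutator_eq_closure, Subgroup.closure_eq_bot_iff]
      rintro _ ⟨a, b, rfl⟩
      rw [Set.mem_singleton_iff, commutatorElement_def, hab a b]
      group
    rw [this, Subgroup.mem_bot] at hx
    rw [hx]
  refine ⟨hc, h1, fun g => ?_⟩
  have h3 : θ g * θ g = 1 := by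
    rw [← isChar_linear_mul hc h1, ← pow_two, h2, h1]
  have h4 : (θ g - 1) * (θ g + 1) = 0 := by linear_combination h3
  rcases mul_eq_zero.mp h4 with h | h
  · rw [sub_eq_zero.mp h]; simp
  · rw [eq_neg_of_add_eq_zero_left h]; simp

theorem mainA : ∀ (n : ℕ) (G : Type u) [Group G] [Finite G] [Group.IsSolvable G],
    Nat.card G = n → ∀ P : Sylow 2 G,
      ro G = ro (Subgroup.normalizer ((P : Subgroup G) : Set G)) := by
  intro n
  induction n using Nat.strong_induction_on with
  | _ n ih =>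
    intro G _ _ _ hcard P
    classical
    have : Fact (Nat.Prime 2) := ⟨Nat.prime_two⟩
    have ih' : IHA.{u} n := ih
    set N := Subgroup.normalizer ((P : Subgroup G) : Set G) with hN
    have hPN : (P : Subgroup G) ≤ N := Subgroup.le_normalizer
    by_cases hnt : Nontrivial G
    swap
    · rw [not_nontrivial_iff_subsingleton] at hnt
      have h1 : N = ⊤ := Subsingleton.elim _ _
      rw [h1]
      exact ro_congr Subgroup.topEquiv.symm
    obtain ⟨L, hLmin⟩ := Cfsg.Agent.Lib.Helper12.exists_minNormal (G := G)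
    obtain ⟨q, hq, hexp, hcomm⟩ := hLmin.exists_prime
    obtain ⟨hL, hLne, -⟩ := hLmin
    have hab : ∀ a ∈ L, ∀ b ∈ L, a * b = b * a := by
      intro a ha b hb
      have := hcomm.is_comm.comm ⟨a, ha⟩ ⟨b, hb⟩
      exact congrArg Subtype.val this
    have hLq : IsPGroup q L := by
      intro x
      refine ⟨1, ?_⟩
      apply Subtype.ext
      rw [pow_one]
      exact hexp x x.2
    have hltq : Nat.card (G ⧸ L) < n := by
      have h1 : Nat.card (G ⧸ L) * Nat.card L = Nat.card G := by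
        rw [mul_comm]; exact L.card_mul_index
      have h3 : 1 < Nat.card L := by
        rw [Subgroup.one_lt_card_iff_ne_bot]; exact hLne
      have h5 : 0 < Nat.card (G ⧸ L) := Nat.card_pos
      rw [hcard] at h1
      nlinarith
    by_cases hq2 : q = 2
    swap
    · -- odd case
      have hLodd : Odd (Nat.card L) := by
        have : Fact q.Prime := ⟨hq⟩
        obtain ⟨k, hk⟩ := IsPGroup.iff_card.mp hLq
        rw [hk]
        exact (hq.odd_of_ne_two hq2).pow
      let π : G →* G ⧸ L := QuotientGroup.mk' L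
      have hπ : Function.Surjective π := QuotientGroup.mk'_surjective L
      let Pb : Sylow 2 (G ⧸ L) := P.mapSurjective hπ
      have hkerπ : π.ker = L := QuotientGroup.ker_mk' L
      have e1 : ro G = ro (G ⧸ L) := by
        apply ro_eq_of_surj_odd_ker π hπ
        · rw [hkerπ]; exact hLodd
        · rw [hkerπ]; exact hab
      rw [e1, ih _ hltq (G ⧸ L) rfl Pb]
      let πN : N →* Subgroup.normalizer ((Pb : Subgroup (G ⧸ L)) : Set (G ⧸ L)) :=
        (π.comp N.subtype).codRestrict _ (fun x => map_mem_normalizer π (P : Subgroup G) x.2)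
      have hπN : Function.Surjective πN := by
        rintro ⟨y, hy⟩
        obtain ⟨m, hm, hmy⟩ := normalizer_map_surj π hπ P y hy
        exact ⟨⟨m, hm⟩, Subtype.ext hmy⟩
      have hkerN : ∀ x : N, x ∈ πN.ker ↔ (x : G) ∈ L := by
        intro x
        rw [MonoidHom.mem_ker]
        constructor
        · intro h
          exact (QuotientGroup.eq_one_iff _).mp (congrArg Subtype.val h)
        · intro h
          exact Subtype.ext ((QuotientGroup.eq_one_iff _).mpr h)
      symm
      apply ro_eq_of_surj_odd_ker πN hπN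
      · let f : πN.ker →* L :=
          { toFun := fun x => ⟨((x : N) : G), (hkerN x).mp x.2⟩
            map_one' := rfl
            map_mul' := fun _ _ => rfl }
        have hf : Function.Injective f := by
          intro a b hab'
          apply Subtype.ext
          apply Subtype.ext
          exact congrArg (fun z : L => (z : G)) hab'
        have hdvd := Subgroup.card_dvd_of_injective f hf
        exact Odd.of_dvd_nat hLodd hdvd
      · intro a ha b hb
        apply Subtype.ext
        exact hab a ((hkerN a).mp ha) b ((hkerN b).mp hb)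
    · -- the case q = 2
      subst hq2
      have hLP : L ≤ P := le_sylow_of_normal L hL hLq P
      have hLN : L ≤ N := hLP.trans hPN
      have hRL : ∀ θ : L → ℂ, IsIrrCharacter L θ → IsRL θ := by
        intro θ hθ
        apply isRL_of_exp_two _ _ hθ
        · intro x
          apply Subtype.ext
          exact hexp x x.2
        · intro a b
          apply Subtype.ext
          exact hab a a.2 b b.2
      rw [ro_congr (Subgroup.topEquiv (G := G)).symm]
      have := Cfsg.Agent.Lib.Helper20.finite_irrCharacter (G := (⊤ : Subgroup G))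
      have := Cfsg.Agent.Lib.Helper20.finite_irrCharacter (G := N)
      have := Cfsg.Agent.Lib.Helper20.finite_irrCharacter (G := L)
      show Nat.card {χ : IrrCharacter (⊤ : Subgroup G) // IsRO (χ : (⊤ : Subgroup G) → ℂ)} =
        Nat.card {χ : IrrCharacter N // IsRO (χ : N → ℂ)}
      apply card_eq_of_classes
        (A := {χ : IrrCharacter (⊤ : Subgroup G) // IsRO (χ : (⊤ : Subgroup G) → ℂ)})
        (B := {χ : IrrCharacter N // IsRO (χ : N → ℂ)})
        (Ω := {θ : IrrCharacter L // ∀ u ∈ (P : Subgroup G), cjF hL (θ : L → ℂ) u = θ})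
        (fun ω ω' => ∃ m ∈ N, ((ω' : IrrCharacter L) : L → ℂ) = cjF hL ((ω : IrrCharacter L) : L → ℂ) m)
        (fun a ω => Ov (le_top : L ≤ ⊤) ((a : IrrCharacter (⊤ : Subgroup G)) : (⊤ : Subgroup G) → ℂ)
          ((ω : IrrCharacter L) : L → ℂ))
        (fun b ω => Ov hLN ((b : IrrCharacter N) : N → ℂ) ((ω : IrrCharacter L) : L → ℂ))
      · rintro ⟨χ, hχ⟩
        obtain ⟨θ, hθ, hθP, hov⟩ := (orb L hL P ⊤ le_top le_top χ χ.2 hχ.2).1
        exact ⟨⟨⟨θ, hθ⟩, hθP⟩, hov⟩
      · rintro ⟨χ, hχ⟩ ω ω' hov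
        exact (orb L hL P ⊤ le_top le_top χ χ.2 hχ.2).2 _ _ ω.1.2 ω'.1.2 ω.2 ω'.2 hov
      · rintro ⟨χ, hχ⟩
        obtain ⟨θ, hθ, hθP, hov⟩ := (orb L hL P N le_rfl hLN χ χ.2 hχ.2).1
        exact ⟨⟨⟨θ, hθ⟩, hθP⟩, hov⟩
      · rintro ⟨χ, hχ⟩ ω ω' hov
        exact (orb L hL P N le_rfl hLN χ χ.2 hχ.2).2 _ _ ω.1.2 ω'.1.2 ω.2 ω'.2 hov
      · rintro ⟨⟨θ, hθ⟩, hθP⟩
        have hθRL := hRL θ hθ
        set T := inertia hL θ with hT
        have hPT : (P : Subgroup G) ≤ T := fun u hu => hθP u hu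
        have hLT : L ≤ T := hLP.trans hPT
        have c1 : Nat.card {a : {χ : IrrCharacter (⊤ : Subgroup G) // IsRO (χ : (⊤ : Subgroup G) → ℂ)} //
            Ov (le_top : L ≤ ⊤) ((a : IrrCharacter (⊤ : Subgroup G)) : (⊤ : Subgroup G) → ℂ) θ} =
            cnt (le_top : L ≤ ⊤) θ :=
          Nat.card_congr (Equiv.subtypeSubtypeEquivSubtypeInter
            (fun χ : IrrCharacter (⊤ : Subgroup G) => IsRO (χ : (⊤ : Subgroup G) → ℂ))
            (fun χ : IrrCharacter (⊤ : Subgroup G) =>
              Ov (le_top : L ≤ ⊤) (χ : (⊤ : Subgroup G) → ℂ) θ))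
        have c2 : Nat.card {b : {χ : IrrCharacter N // IsRO (χ : N → ℂ)} //
            Ov hLN ((b : IrrCharacter N) : N → ℂ) θ} = cnt hLN θ :=
          Nat.card_congr (Equiv.subtypeSubtypeEquivSubtypeInter
            (fun χ : IrrCharacter N => IsRO (χ : N → ℂ))
            (fun χ : IrrCharacter N => Ov hLN (χ : N → ℂ) θ))
        show Nat.card {a : {χ : IrrCharacter (⊤ : Subgroup G) // IsRO (χ : (⊤ : Subgroup G) → ℂ)} //
            Ov (le_top : L ≤ ⊤) ((a : IrrCharacter (⊤ : Subgroup G)) : (⊤ : Subgroup G) → ℂ) θ} =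
          Nat.card {b : {χ : IrrCharacter N // IsRO (χ : N → ℂ)} //
            Ov hLN ((b : IrrCharacter N) : N → ℂ) θ}
        rw [c1, c2]
        have hodd : ∀ Y : Subgroup G, (P : Subgroup G) ≤ Y → Odd ((Y ⊓ T).relIndex Y) := by
          intro Y hPY
          have h3 : (P : Subgroup G).relIndex (Y ⊓ T) * (Y ⊓ T).relIndex Y =
              (P : Subgroup G).relIndex Y :=
            Subgroup.relIndex_mul_relIndex _ _ _ (le_inf hPY hPT) inf_le_left
          have h4 : (P : Subgroup G).relIndex Y * Y.index = (P : Subgroup G).index :=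
            Subgroup.relIndex_mul_index hPY
          have h5 := odd_index_sylow P
          rw [← h4, ← h3] at h5
          exact (Nat.odd_mul.mp (Nat.odd_mul.mp h5).1).2
        rw [cnt_inertia L hL θ hθ hθRL.2.2 ⊤ le_top (le_inf le_top hLT) (hodd ⊤ le_top),
          cnt_inertia L hL θ hθ hθRL.2.2 N hLN (le_inf hLN hLT) (hodd N hPN),
          cnt_congr (top_inf_eq T) _ hLT θ]
        exact cnt_T_eq ih' hcard P L hL hLne hLP θ hθRL T hPT (fun t ht => ht) hLT _

end Cfsg.Agent.Lib.Helper84.RO
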