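import Cfsg.Agent.Lib.Helper84.RO.PartA
import Cfsg.Agent.Lib.Helper4.RORC
import Cfsg.Agent.Lib.Helper4.ROB1
import Cfsg.Agent.Lib.Helper4.ROB2
import Cfsg.Agent.Lib.Helper4.ROC2

set_option autoImplicit false

namespace Cfsg.Agent.Lib.Helper84.RO

open Cfsg Cfsg.Agent.Lib.Helper5 Cfsg.Agent.Lib.Helper82 Cfsg.Agent.Lib.Helper82.RO
  Cfsg.Agent.Lib.Helper42.RO Cfsg.Agent.Lib.Helper4.RO
open scoped ComplexConjugate

universe u

theorem allReal_of_surj {A B : Type*} [Group A] [Group B] (π : A →* B)
    (hπ : Function.Surjective π) (h : AllReal A) : AllReal B := by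
  intro ψ hodd b
  obtain ⟨a, rfl⟩ := hπ b
  refine h ⟨fun a => (ψ : B → ℂ) (π a), isIrr_comp_surj ψ.2 π hπ⟩ ?_ a
  unfold charDegree at hodd ⊢
  simpa only [map_one] using hodd

theorem linReal_of_surj {A B : Type*} [Group A] [Group B] (π : A →* B)
    (hπ : Function.Surjective π) (h : LinReal A) : LinReal B := by
  intro ν hν h1 b
  obtain ⟨a, rfl⟩ := hπ b
  refine h (fun a => ν (π a)) (Cfsg.Agent.Lib.Helper20.isCharacter_comp_hom hν π) ?_ a
  show ν (π 1) = 1
  rw [map_one, h1]

theorem real_of_allReal_quot {A B : Type*} [Group A] [Group B] [Finite A] (π : A →* B)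
    (hπ : Function.Surjective π) (hB : AllReal B) (χ : A → ℂ) (hχ : IsIrrCharacter A χ)
    (hodd : Odd (charDegree χ)) (hker : ∀ x : A, π x = 1 → χ x = χ 1) : IsReal χ := by
  obtain ⟨ψ, hψ, hψχ⟩ := isIrr_deflate hχ π.ker (fun x hx => hker x hx)
  let e := QuotientGroup.quotientKerEquivOfSurjective π hπ
  have h1 : IsIrrCharacter B (fun b => ψ (e.symm b)) :=
    isIrr_comp_surj hψ e.symm.toMonoidHom e.symm.surjective
  have h2 : Odd (charDegree (fun b => ψ (e.symm b))) := by
    unfold charDegree at hodd ⊢
    have : ψ (e.symm 1) = χ 1 := by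
      rw [map_one, ← hψχ 1]; rfl
    show Odd ⌊(ψ (e.symm 1)).re⌋₊
    rw [this]; exact hodd
  intro a
  have h3 := hB ⟨_, h1⟩ h2 (π a)
  have h4 : e.symm (π a) = (a : A ⧸ π.ker) := by
    rw [MulEquiv.symm_apply_eq]; rfl
  have h5 : ψ (e.symm (π a)) = χ a := by rw [h4, hψχ]
  rw [← h5]; exact h3

theorem real_of_linReal_quot {A B : Type*} [Group A] [Group B] [Finite A] (π : A →* B)
    (hπ : Function.Surjective π) (hB : LinReal B) (ν : A → ℂ) (hν : IsCharacter A ν)
    (h1 : ν 1 = 1) (hker : ∀ x : A, π x = 1 → ν x = 1) : IsReal ν := by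
  obtain ⟨ψ, hψ, hψχ⟩ := isIrr_deflate (isChar_linear_isIrr hν h1) π.ker
    (fun x hx => by rw [h1]; exact hker x hx)
  let e := QuotientGroup.quotientKerEquivOfSurjective π hπ
  have h1' : IsCharacter B (fun b => ψ (e.symm b)) :=
    Cfsg.Agent.Lib.Helper20.isCharacter_comp_hom (isIrr_isChar hψ) e.symm.toMonoidHom
  have h2 : ψ (e.symm 1) = 1 := by
    rw [map_one, ← h1, ← hψχ 1]; rfl
  intro a
  have h3 := hB _ h1' h2 (π a)
  have h4 : e.symm (π a) = (a : A ⧸ π.ker) := by
    rw [MulEquiv.symm_apply_eq]; rfl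
  have h5 : ψ (e.symm (π a)) = ν a := by rw [h4, hψχ]
  rw [← h5]; exact h3

theorem normalizer_map_eq {X X' : Type*} [Group X] [Finite X] [Group X'] {p : ℕ} [Fact p.Prime]
    (π : X →* X') (hπ : Function.Surjective π) (S : Sylow p X)
    (h : Subgroup.normalizer ((S : Subgroup X) : Set X) = S) :
    Subgroup.normalizer (((S : Subgroup X).map π : Subgroup X') : Set X') =
      (S : Subgroup X).map π := by
  apply le_antisymm _ Subgroup.le_normalizer
  intro y hy
  obtain ⟨n, hn, rfl⟩ := normalizer_map_surj π hπ S y hy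
  rw [h] at hn
  exact ⟨n, hn, rfl⟩

theorem normalizer_eq_of_map {X X' : Type*} [Group X] [Group X']
    (π : X →* X') (S : Subgroup X)
    (h : Subgroup.normalizer ((S.map π : Subgroup X') : Set X') = S.map π)
    (hk : ∀ l : X, π l = 1 → l ∈ Subgroup.normalizer (S : Set X) → l ∈ S) :
    Subgroup.normalizer (S : Set X) = S := by
  apply le_antisymm _ Subgroup.le_normalizer
  intro n hn
  have h1 := map_mem_normalizer π S hn
  rw [h] at h1
  obtain ⟨u, hu, hun⟩ := h1
  have h2 : u⁻¹ * n ∈ S := by
    apply hk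
    · rw [map_mul, map_inv, hun, inv_mul_cancel]
    · exact Subgroup.mul_mem _ (Subgroup.inv_mem _ (Subgroup.le_normalizer hu)) hn
  have := S.mul_mem hu h2
  rwa [mul_inv_cancel_left] at this

/-- [C1] -/
theorem ker_of_fixed_point_free {G : Type*} [Group G] [Finite G] (L : Subgroup G) (hL : L.Normal)
    (hab : ∀ a ∈ L, ∀ b ∈ L, a * b = b * a) (hodd : Odd (Nat.card L)) (P : Sylow 2 G)
    (hC : ∀ k ∈ L, (∀ s ∈ (P : Subgroup G), s * k = k * s) → k = 1)
    (χ : G → ℂ) (hχ : IsIrrCharacter G χ) (hdeg : Odd (charDegree χ)) : ∀ l ∈ L, χ l = χ 1 := by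
  have : Fact (Nat.Prime 2) := ⟨Nat.prime_two⟩
  have hχ' : IsIrrCharacter (⊤ : Subgroup G) (fun x => χ x) :=
    isIrr_comp_surj hχ (⊤ : Subgroup G).subtype (fun g => ⟨⟨g, trivial⟩, rfl⟩)
  obtain ⟨θ, hθ, hθP, hov⟩ := (orb L hL P ⊤ le_top le_top (fun x => χ x) hχ' hdeg).1
  have h1 : θ 1 = 1 := isIrr_one_eq_one_of_comm
    (fun a b => Subtype.ext (hab a a.2 b b.2)) hθ
  have hcop : (Nat.card L).Coprime (Nat.card (P : Subgroup G)) := by
    obtain ⟨k, hk⟩ := IsPGroup.iff_card.mp P.2
    rw [hk]
    exact (Nat.coprime_two_right.mpr hodd).pow_right k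
  have h2 := (fix_dual L hL hab (P : Subgroup G) hcop).mpr hC θ (isIrr_isChar hθ) h1 hθP
  subst h2
  have h3 := (res_of_ov_invariant L ⊤ hL le_top (fun _ => 1) isRL_one.1 rfl
    (fun y _ => by funext l; rfl) (fun x => χ x) hχ').mp hov
  intro l hl
  have := h3 ⟨l, hl⟩
  simpa using this

theorem mainBC : ∀ (n : ℕ) (G : Type u) [Group G] [Finite G] [Group.IsSolvable G],
    Nat.card G = n → ∀ P : Sylow 2 G,
      (AllReal G ↔ LinReal ↥(P : Subgroup G) ∧
        Subgroup.normalizer ((P : Subgroup G) : Set G) = P) := by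
  intro n
  induction n using Nat.strong_induction_on with
  | _ n ih =>
    intro G _ _ _ hcard P
    classical
    have : Fact (Nat.Prime 2) := ⟨Nat.prime_two⟩
    by_cases hnt : Nontrivial G
    swap
    · rw [not_nontrivial_iff_subsingleton] at hnt
      constructor
      · intro _
        refine ⟨fun ν _ h1 g => ?_, Subsingleton.elim _ _⟩
        rw [Subsingleton.elim g 1, h1]; simp
      · intro _ χ _ g
        rw [Subsingleton.elim g 1, isChar_one_eq (isIrr_isChar χ.2)]; simp
    obtain ⟨L, hLmin⟩ := Cfsg.Agent.Lib.Helper12.exists_minNormal (G := G)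
    obtain ⟨q, hq, hexp, hcomm⟩ := hLmin.exists_prime
    obtain ⟨hL, hLne, -⟩ := hLmin
    have hab : ∀ a ∈ L, ∀ b ∈ L, a * b = b * a := by
      intro a ha b hb
      have := hcomm.is_comm.comm ⟨a, ha⟩ ⟨b, hb⟩
      exact congrArg Subtype.val this
    have hLq : IsPGroup q L := by
      intro x
      refine ⟨1, ?_⟩
      apply Subtype.ext
      rw [pow_one]
      exact hexp x x.2
    have h3 : 1 < Nat.card L := by
      rw [Subgroup.one_lt_card_iff_ne_bot]; exact hLne
    have hltq : Nat.card (G ⧸ L) < n := by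
      have h1 : Nat.card (G ⧸ L) * Nat.card L = Nat.card G := by
        rw [mul_comm]; exact L.card_mul_index
      have h5 : 0 < Nat.card (G ⧸ L) := Nat.card_pos
      rw [hcard] at h1
      nlinarith
    let π : G →* G ⧸ L := QuotientGroup.mk' L
    have hπ : Function.Surjective π := QuotientGroup.mk'_surjective L
    have hπk : ∀ x : G, π x = 1 ↔ x ∈ L := fun x => QuotientGroup.eq_one_iff x
    let Pb : Sylow 2 (G ⧸ L) := P.mapSurjective hπ
    have hIH := ih _ hltq (G ⧸ L) rfl Pb
    let πP : (P : Subgroup G) →* (Pb : Subgroup (G ⧸ L)) :=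
      (π.comp (P : Subgroup G).subtype).codRestrict _ (fun u => ⟨u, u.2, rfl⟩)
    have hπP : Function.Surjective πP := by
      rintro ⟨y, u, hu, rfl⟩
      exact ⟨⟨u, hu⟩, rfl⟩
    have hπPk : ∀ u : (P : Subgroup G), πP u = 1 ↔ (u : G) ∈ L := by
      intro u
      rw [← hπk]
      exact ⟨fun h => congrArg Subtype.val h, fun h => Subtype.ext h⟩
    by_cases hq2 : q = 2
    swap
    · -- odd case
      have hLodd : Odd (Nat.card L) := by
        have : Fact q.Prime := ⟨hq⟩
        obtain ⟨k, hk⟩ := IsPGroup.iff_card.mp hLq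
        rw [hk]
        exact (hq.odd_of_ne_two hq2).pow
      have hcop : (Nat.card (P : Subgroup G)).Coprime (Nat.card L) := by
        obtain ⟨k, hk⟩ := IsPGroup.iff_card.mp P.2
        rw [hk]
        exact (Nat.coprime_two_left.mpr hLodd).pow_left k
      have hPL : ∀ x ∈ (P : Subgroup G), x ∈ L → x = 1 := by
        intro x hx hxL
        have := (Subgroup.disjoint_of_coprime_natCard hcop).eq_bot
        have h2 : x ∈ (P : Subgroup G) ⊓ L := ⟨hx, hxL⟩
        rw [this] at h2
        exact h2
      have hinj : Function.Injective πP := by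
        rw [injective_iff_map_eq_one]
        intro u hu
        exact Subtype.ext (hPL u u.2 ((hπPk u).mp hu))
      let e : (P : Subgroup G) ≃* (Pb : Subgroup (G ⧸ L)) := MulEquiv.ofBijective πP ⟨hinj, hπP⟩
      constructor
      · intro hall
        obtain ⟨hl, hN⟩ := hIH.mp (allReal_of_surj π hπ hall)
        have hC := centralizer_trivial_of_allReal L hL hab hLodd P hall
        refine ⟨linReal_of_surj e.symm.toMonoidHom e.symm.surjective hl, ?_⟩
        apply normalizer_eq_of_map π (P : Subgroup G) hN
        intro l hl1 hlN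
        have hlL := (hπk l).mp hl1
        have : l = 1 := by
          apply hC l hlL
          intro s hs
          have h5 : l * s⁻¹ * l⁻¹ ∈ (P : Subgroup G) :=
            (Subgroup.mem_normalizer_iff.mp hlN s⁻¹).mp (Subgroup.inv_mem _ hs)
          have h6 : s * (l * s⁻¹ * l⁻¹) ∈ (P : Subgroup G) := Subgroup.mul_mem _ hs h5
          have h7 : s * (l * s⁻¹ * l⁻¹) ∈ L := by
            have h8 := L.mul_mem (hL.conj_mem l hlL s) (L.inv_mem hlL)
            have e8 : s * l * s⁻¹ * l⁻¹ = s * (l * s⁻¹ * l⁻¹) := by group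
            rwa [e8] at h8
          have h9 := hPL _ h6 h7
          calc s * l = (s * (l * s⁻¹ * l⁻¹)) * (l * s) := by group
            _ = l * s := by rw [h9, one_mul]
        rw [this]; exact Subgroup.one_mem _
      · rintro ⟨hlin, hN⟩
        have hallq := hIH.mpr ⟨linReal_of_surj πP hπP hlin, normalizer_map_eq π hπ P hN⟩
        intro χ hodd
        apply real_of_allReal_quot π hπ hallq χ χ.2 hodd
        intro x hx
        apply ker_of_fixed_point_free L hL hab hLodd P _ χ χ.2 hodd x ((hπk x).mp hx)
        intro k hk hks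
        apply hPL k _ hk
        rw [← hN, Subgroup.mem_normalizer_iff]
        intro z
        constructor
        · intro hz
          have e1 : k * z * k⁻¹ = z := by rw [← hks z hz, mul_inv_cancel_right]
          rw [e1]; exact hz
        · intro hz
          have e0 := hks _ hz
          have e1 : z = k * z * k⁻¹ := by
            have e2 : k * z * k⁻¹ * k = k * z := by group
            rw [e2] at e0
            have e3 : z = k * z * k⁻¹ * 1 := by
              rw [mul_one]
              exact mul_left_cancel e0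
            rw [mul_one] at e3
            exact e3
          rw [e1]; exact hz
    · -- the case q = 2
      subst hq2
      have hLP : L ≤ P := le_sylow_of_normal L hL hLq P
      constructor
      · intro hall
        obtain ⟨hl, hN⟩ := hIH.mp (allReal_of_surj π hπ hall)
        have hNP : Subgroup.normalizer ((P : Subgroup G) : Set G) = P :=
          normalizer_eq_of_map π (P : Subgroup G) hN (fun l hl1 _ => hLP ((hπk l).mp hl1))
        refine ⟨?_, hNP⟩
        apply linReal_of_allReal L hL P hLP hexp hall hNP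
        intro ν hν h1 hνL
        apply real_of_linReal_quot πP hπP hl ν hν h1
        intro x hx
        exact hνL ⟨x, (hπPk x).mp hx⟩
      · rintro ⟨hlin, hN⟩
        intro χ hodd
        have hχ' : IsIrrCharacter (⊤ : Subgroup G) (fun x => (χ : G → ℂ) x) :=
          isIrr_comp_surj χ.2 (⊤ : Subgroup G).subtype (fun g => ⟨⟨g, trivial⟩, rfl⟩)
        obtain ⟨θ, hθ, hθP, hov⟩ :=
          (orb L hL P ⊤ le_top le_top (fun x => (χ : G → ℂ) x) hχ' hodd).1
        have hθRL : IsRL θ := by
          apply isRL_of_exp_two _ _ hθ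
          · intro x
            apply Subtype.ext
            exact hexp x x.2
          · intro a b
            apply Subtype.ext
            exact hab a a.2 b b.2
        set T := inertia hL θ with hT
        have hPT : (P : Subgroup G) ≤ T := fun u hu => hθP u hu
        have hLT : L ≤ T := hLP.trans hPT
        apply real_of_over L hL P hLP θ hθRL hθP hlin hLT _ χ χ.2 hodd hov
        intro β hβ hβodd hβL
        have hLTn : (L.subgroupOf T).Normal := hL.subgroupOf T
        let πT : T →* T ⧸ L.subgroupOf T := QuotientGroup.mk' _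
        have hπT : Function.Surjective πT := QuotientGroup.mk'_surjective _
        let PT : Sylow 2 T := P.subtype hPT
        let Pb' : Sylow 2 (T ⧸ L.subgroupOf T) := PT.mapSurjective hπT
        have hkerT : ∀ y : T, πT y = 1 ↔ (y : G) ∈ L := by
          intro y
          rw [QuotientGroup.mk'_apply, QuotientGroup.eq_one_iff, Subgroup.mem_subgroupOf]
        have hlt : Nat.card (T ⧸ L.subgroupOf T) < n := by
          have h1 : Nat.card (T ⧸ L.subgroupOf T) * Nat.card (L.subgroupOf T) = Nat.card T := by
            rw [mul_comm]; exact (L.subgroupOf T).card_mul_index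
          have h2 : Nat.card (L.subgroupOf T) = Nat.card L :=
            Nat.card_congr (Subgroup.subgroupOfEquivOfLe hLT).toEquiv
          have h4 : Nat.card T ≤ n := by rw [← hcard]; exact Subgroup.card_le_card_group T
          have h5 : 0 < Nat.card (T ⧸ L.subgroupOf T) := Nat.card_pos
          rw [h2] at h1
          nlinarith
        have hIHT := ih _ hlt (T ⧸ L.subgroupOf T) rfl Pb'
        have hNT : Subgroup.normalizer ((PT : Subgroup T) : Set T) = PT := by
          apply le_antisymm _ Subgroup.le_normalizer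
          intro m hm
          have hmN : (m : G) ∈ Subgroup.normalizer ((P : Subgroup G) : Set G) := by
            rw [Subgroup.mem_normalizer_iff]
            intro g
            rw [Subgroup.mem_normalizer_iff] at hm
            constructor
            · intro hg
              exact (hm ⟨g, hPT hg⟩).mp hg
            · intro hg
              have hgT : g ∈ T := by
                have h1 := T.mul_mem (T.mul_mem (T.inv_mem m.2) (hPT hg)) m.2
                have e : (m : G)⁻¹ * ((m : G) * g * (m : G)⁻¹) * (m : G) = g := by group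
                rwa [e] at h1
              exact (hm ⟨g, hgT⟩).mpr hg
          rw [hN] at hmN
          exact hmN
        let πP' : (P : Subgroup G) →* (Pb' : Subgroup (T ⧸ L.subgroupOf T)) :=
          (πT.comp (Subgroup.inclusion hPT)).codRestrict _
            (fun u => ⟨Subgroup.inclusion hPT u, u.2, rfl⟩)
        have hπP' : Function.Surjective πP' := by
          rintro ⟨y, u, hu, rfl⟩
          exact ⟨⟨u, hu⟩, rfl⟩
        have hallT := hIHT.mpr ⟨linReal_of_surj πP' hπP' hlin, normalizer_map_eq πT hπT PT hNT⟩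
        apply real_of_allReal_quot πT hπT hallT β hβ hβodd
        intro x hx
        exact hβL ⟨x, (hkerT x).mp hx⟩

end Cfsg.Agent.Lib.Helper84.RO
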